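import Cfsg.Agent.H964.NoHall.BabyQ

/-!
# The Baby Monster: subgroups of odd index containing the centralizer of a transposition (helper964)

`exists_conj` : such a subgroup contains an element conjugating `t₀` to `t₀ z`;
`eq_top` : it is the whole group (with two commuting transpositions in `Q` whose centralizers generate).
-/

set_option autoImplicit false
set_option linter.unusedSectionVars false

namespace Cfsg.Agent.H964.NoHall.BabyN

open Subgroup Cfsg.Agent.BabyM.Model Cfsg.Agent.H964.NoHall.BabyQ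

variable {W : Type} [AddCommGroup W] [Module ℚ W] {M : BData W} {K₀ : Type} [Group K₀] (A : BAll M K₀)

/-- `t₀` in `G` -/
def tG : M.G := ⟨M.t₀, A.C_le_G A.t₀_C⟩

/-- `z` in `G` -/
def zG : M.G := ⟨M.z, A.C_le_G A.grp.z_mem_C⟩

theorem mem_centralizer_tG {g : M.G} : g ∈ centralizer ({tG A} : Set M.G) ↔
    (g : W ≃ₗ[ℚ] W) * M.t₀ = M.t₀ * g := by
  rw [mem_centralizer_singleton_iff, Subtype.ext_iff]
  exact Iff.rfl

theorem mem_centralizer_zG {g : M.G} : g ∈ centralizer ({zG A} : Set M.G) ↔ (g : W ≃ₗ[ℚ] W) ∈ M.C := by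
  rw [mem_centralizer_singleton_iff, Subtype.ext_iff]
  exact ⟨fun h => A.cent_z g g.2 h, fun h => A.grp.z_comm g h⟩

theorem card_cent_zG : Nat.card (centralizer ({zG A} : Set M.G)) = 2 ^ 23 * 42305421312000 := by
  rw [← A.grp.card_C]
  refine Nat.card_congr ⟨fun x => ⟨x.1.1, (mem_centralizer_zG A).1 x.2⟩,
    fun x => ⟨⟨x.1, A.C_le_G x.2⟩, (mem_centralizer_zG A).2 x.2⟩, fun x => rfl, fun x => rfl⟩

/-- a 2-subgroup of order `2 ^ 38` of the centralizer of `t₀`, containing `C_Q(t₀)` -/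
theorem exists_P : ∃ P : Subgroup M.G, Nat.card P = 2 ^ 38 ∧ P ≤ centralizer ({tG A} : Set M.G) ∧
    ∀ q : M.G, (q : W ≃ₗ[ℚ] W) ∈ M.Q → (q : W ≃ₗ[ℚ] W) * M.t₀ = M.t₀ * q → q ∈ P := by
  classical
  have hfC := A.grp.finite_C
  have : Fact (Nat.Prime 2) := ⟨Nat.prime_two⟩
  -- the stabiliser of `d₀` in `C`
  have e1 : Nat.card M.C = 9200 * Nat.card (MulAction.stabilizer M.C M.d₀) := by
    have hX : M.S = MulAction.orbit M.C M.d₀ := by
      ext x
      constructor
      · rintro ⟨g, hg, rfl⟩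
        exact ⟨⟨g, hg⟩, rfl⟩
      · rintro ⟨g, rfl⟩
        exact ⟨g, g.2, rfl⟩
    rw [← A.rep.S_card, ← Nat.card_coe_set_eq, hX, ← Nat.card_prod]
    exact Nat.card_congr (MulAction.orbitProdStabilizerEquivGroup M.C M.d₀).symm
  obtain ⟨n, hn, hnd⟩ := A.rep.neg
  have hd0 : M.d₀ ≠ - M.d₀ := by
    intro h
    have h1 := A.F_d₀
    have h2 : M.F M.d₀ M.d₀ = - M.F M.d₀ M.d₀ := by
      conv_lhs => rw [h]
      rw [LinearMap.BilinForm.neg_left, ← h]
    linarith
  -- the centralizer of `t₀` in `C`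
  let H : Subgroup M.C := centralizer ({(⟨M.t₀, A.t₀_C⟩ : M.C)} : Set M.C)
  have hH : ∀ g : M.C, g ∈ H ↔ (g : W ≃ₗ[ℚ] W) * M.t₀ = M.t₀ * g := by
    intro g
    rw [mem_centralizer_singleton_iff, Subtype.ext_iff]
    exact Iff.rfl
  have hH' : ∀ g : M.C, g ∈ H → (g : W ≃ₗ[ℚ] W) M.d₀ = M.d₀ ∨ (g : W ≃ₗ[ℚ] W) M.d₀ = - M.d₀ :=
    fun g hg => A.comm_t₀_C g g.2 ((hH g).1 hg)
  have hst : ∀ g : M.C, g ∈ MulAction.stabilizer M.C M.d₀ ↔ (g : W ≃ₗ[ℚ] W) M.d₀ = M.d₀ := fun g => Iff.rfl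
  have hle : MulAction.stabilizer M.C M.d₀ ≤ H := by
    intro g hg
    rw [hH]
    exact A.t₀_comm g (A.C_le g.2) (Or.inl ((hst g).1 hg))
  have hnH : (⟨n, hn⟩ : M.C) ∈ H := by
    rw [hH]
    exact A.t₀_comm n (A.C_le hn) (Or.inr hnd)
  have e2 : (MulAction.stabilizer M.C M.d₀).relIndex H = 2 := by
    change ((MulAction.stabilizer M.C M.d₀).subgroupOf H).index = 2
    rw [index_eq_two_iff]
    refine ⟨⟨⟨n, hn⟩, hnH⟩, fun b => ?_⟩
    rw [mem_subgroupOf, mem_subgroupOf]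
    have hb := hH' b.1 b.2
    have h1 : ((b : M.C) : W ≃ₗ[ℚ] W) (n M.d₀) = - ((b : M.C) : W ≃ₗ[ℚ] W) M.d₀ := by rw [hnd, map_neg]
    rw [hst, hst]
    change Xor (((b : M.C) : W ≃ₗ[ℚ] W) (n M.d₀) = M.d₀) (((b : M.C) : W ≃ₗ[ℚ] W) M.d₀ = M.d₀)
    rw [h1]
    rcases hb with hb | hb
    · rw [hb]
      exact Or.inr ⟨rfl, fun h => hd0 h.symm⟩
    · rw [hb, neg_neg]
      exact Or.inl ⟨rfl, fun h => hd0 h.symm⟩
  have e3 : Nat.card H = 2 * Nat.card (MulAction.stabilizer M.C M.d₀) := by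
    have h1 := ((MulAction.stabilizer M.C M.d₀).subgroupOf H).card_mul_index
    rw [show ((MulAction.stabilizer M.C M.d₀).subgroupOf H).index = 2 from e2,
      Nat.card_congr (subgroupOfEquivOfLe hle).toEquiv] at h1
    omega
  have e4 : Nat.card H = 2 ^ 38 * 280665 := by
    have h1 := A.grp.card_C
    rw [e1] at h1
    omega
  -- a Sylow subgroup
  let CQ : Subgroup H := (M.Q.subgroupOf M.C).subgroupOf H
  have hQ : IsPGroup 2 M.Q := IsPGroup.of_card A.grp.Q_card
  have hCQ : IsPGroup 2 CQ := (hQ.comap_subtype (K := M.C)).comap_subtype (K := H)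
  obtain ⟨S, hS⟩ := hCQ.exists_le_sylow
  have hcS : Nat.card S = 2 ^ 38 := by
    rw [S.card_eq_multiplicity, e4, Nat.factorization_mul (by norm_num) (by norm_num),
      Nat.prime_two.factorization_pow, Finsupp.add_apply, Finsupp.single_eq_same,
      Nat.factorization_eq_zero_of_not_dvd (by norm_num)]
  let io : H →* M.G := (Subgroup.inclusion A.C_le_G).comp H.subtype
  have hio : Function.Injective io := (Subgroup.inclusion_injective A.C_le_G).comp H.subtype_injective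
  refine ⟨(S : Subgroup H).map io, ?_, ?_, ?_⟩
  · rw [← hcS]
    exact (Nat.card_congr ((S : Subgroup H).equivMapOfInjective io hio).toEquiv).symm
  · rintro _ ⟨g, -, rfl⟩
    rw [mem_centralizer_tG]
    exact (hH g.1).1 g.2
  · intro q hq hqt
    have h1 : (⟨q, A.grp.Q_le hq⟩ : M.C) ∈ H := (hH _).2 hqt
    exact ⟨⟨⟨q, A.grp.Q_le hq⟩, h1⟩, hS (show _ ∈ CQ from hq), rfl⟩

/-- **A subgroup of odd index containing the centralizer of `t₀` contains an element conjugating `t₀` to `t₀ z`.** -/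
theorem exists_conj (B : BTrans M) {N : Subgroup M.G} (hN : centralizer ({tG A} : Set M.G) ≤ N)
    (hodd : ¬ 2 ∣ N.index) : ∃ g ∈ N, g * tG A * g⁻¹ = tG A * zG A := by
  classical
  have hfin := A.finite_G
  have : Fact (Nat.Prime 2) := ⟨Nat.prime_two⟩
  obtain ⟨P, hP1, hP2, hP3⟩ := exists_P A
  have hPN : P ≤ N := hP2.trans hN
  -- `2 ^ 39` divides `|N|`
  have h39 : 2 ^ 39 ∣ Nat.card N := by
    have h1 : Nat.card N * N.index = 2 ^ 39 * 7557503488399427062500 := by
      rw [N.card_mul_index, A.card_G]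
      norm_num
    have h2 : (2 ^ 39).Coprime N.index := Nat.Coprime.pow_left _ ((Nat.Prime.coprime_iff_not_dvd Nat.prime_two).mpr hodd)
    exact h2.dvd_of_dvd_mul_right (h1 ▸ dvd_mul_right _ _)
  have hPc : Nat.card (P.subgroupOf N) = 2 ^ 38 := by
    rw [← hP1]
    exact Nat.card_congr (subgroupOfEquivOfLe hPN).toEquiv
  obtain ⟨K, hK1, hK2⟩ := Sylow.exists_subgroup_card_pow_succ h39 hPc
  -- an element of `K` not centralising `t₀`
  have hX : ¬ K.map N.subtype ≤ centralizer ({tG A} : Set M.G) := by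
    intro hle
    have h1 : Nat.card (K.map N.subtype) = 2 ^ 39 := by
      rw [← hK1]
      exact (Nat.card_congr (K.equivMapOfInjective _ N.subtype_injective).toEquiv).symm
    have h2 := card_dvd_of_le hle
    rw [h1, show Nat.card (centralizer ({tG A} : Set M.G)) = 306129918735099415756800 from A.card_cent B] at h2
    norm_num at h2
  obtain ⟨_, ⟨g, hg, rfl⟩, hgX⟩ := SetLike.not_le_iff_exists.mp hX
  refine ⟨g, g.2, ?_⟩
  -- `g` normalises `P`
  have hidx : ((P.subgroupOf N).subgroupOf K).index = 2 := by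
    have h1 := ((P.subgroupOf N).subgroupOf K).card_mul_index
    have h2 : Nat.card ((P.subgroupOf N).subgroupOf K) = 2 ^ 38 := by
      rw [← hPc]
      exact Nat.card_congr (subgroupOfEquivOfLe hK2).toEquiv
    rw [h2, hK1] at h1
    omega
  have hnorm := normal_of_index_eq_two hidx
  have hconj : ∀ q ∈ P, (g : M.G)⁻¹ * q * g ∈ P := by
    intro q hq
    have h1 : (⟨⟨q, hPN hq⟩, hK2 hq⟩ : K) ∈ (P.subgroupOf N).subgroupOf K := hq
    have h2 := hnorm.conj_mem _ h1 (⟨g, hg⟩ : K)⁻¹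
    rw [inv_inv] at h2
    exact h2
  -- the conjugate centralises `C_Q(t₀)`
  have hs := cent_CQ A (s := ((g : M.G) * tG A * (g : M.G)⁻¹ : M.G)) (SetLike.coe_mem _) (by
    intro q hq hqt
    have hqG : q ∈ M.G := A.C_le_G (A.grp.Q_le hq)
    have h1 := hP2 (hconj ⟨q, hqG⟩ (hP3 ⟨q, hqG⟩ hq hqt))
    rw [mem_centralizer_singleton_iff] at h1
    have h2 : ((g : M.G) * tG A * (g : M.G)⁻¹) * ⟨q, hqG⟩ = ⟨q, hqG⟩ * ((g : M.G) * tG A * (g : M.G)⁻¹) := by
      calc ((g : M.G) * tG A * (g : M.G)⁻¹) * ⟨q, hqG⟩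
          = g * (tG A * ((g : M.G)⁻¹ * ⟨q, hqG⟩ * g)) * (g : M.G)⁻¹ := by group
        _ = g * (((g : M.G)⁻¹ * ⟨q, hqG⟩ * g) * tG A) * (g : M.G)⁻¹ := by rw [h1]
        _ = _ := by group
    exact congrArg Subtype.val h2)
  rcases hs with hs | hs | hs | hs
  · exfalso
    have h1 : (g : M.G) * tG A * (g : M.G)⁻¹ = 1 := Subtype.ext hs
    have h2 : tG A = 1 := by
      calc tG A = (g : M.G)⁻¹ * ((g : M.G) * tG A * (g : M.G)⁻¹) * g := by group
        _ = 1 := by rw [h1]; group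
    exact A.rep.t₀_ne (congrArg Subtype.val h2)
  · exfalso
    have h1 : (g : M.G) * tG A * (g : M.G)⁻¹ = zG A := Subtype.ext hs
    have h2 : Nat.card (centralizer ({tG A} : Set M.G)) = Nat.card (centralizer ({zG A} : Set M.G)) := by
      rw [← h1]
      refine Nat.card_congr ⟨fun x => ⟨g * x * (g : M.G)⁻¹, ?_⟩, fun x => ⟨(g : M.G)⁻¹ * x * g, ?_⟩, ?_, ?_⟩
      · rw [mem_centralizer_singleton_iff]
        have h3 := mem_centralizer_singleton_iff.mp x.2
        calc g * (x : M.G) * (g : M.G)⁻¹ * (g * tG A * (g : M.G)⁻¹) = g * (x * tG A) * (g : M.G)⁻¹ := by group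
          _ = g * (tG A * x) * (g : M.G)⁻¹ := by rw [h3]
          _ = _ := by group
      · rw [mem_centralizer_singleton_iff]
        have h3 := mem_centralizer_singleton_iff.mp x.2
        calc (g : M.G)⁻¹ * x * g * tG A = (g : M.G)⁻¹ * (x * (g * tG A * (g : M.G)⁻¹)) * g := by group
          _ = (g : M.G)⁻¹ * ((g * tG A * (g : M.G)⁻¹) * x) * g := by rw [h3]
          _ = _ := by group
      · intro x
        apply Subtype.ext
        change (g : M.G)⁻¹ * (g * (x : M.G) * (g : M.G)⁻¹) * g = x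
        group
      · intro x
        apply Subtype.ext
        change g * ((g : M.G)⁻¹ * (x : M.G) * g) * (g : M.G)⁻¹ = x
        group
    rw [card_cent_zG, show Nat.card (centralizer ({tG A} : Set M.G)) = 306129918735099415756800 from
      A.card_cent B] at h2
    norm_num at h2
  · exfalso
    apply hgX
    rw [mem_centralizer_singleton_iff]
    have h1 : (g : M.G) * tG A * (g : M.G)⁻¹ = tG A := Subtype.ext hs
    exact mul_inv_eq_iff_eq_mul.mp h1
  · exact Subtype.ext hs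

end Cfsg.Agent.H964.NoHall.BabyN
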