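import Cfsg.Agent.BabyM.AbsFinal

/-!
# The Baby Monster: the centralizer of `C_Q(t₀)` (helper964)

`cent_CQ` : an element of `G` which centralises `C_Q(t₀)` is in `{1, z, t₀, t₀ z}`.
-/

set_option autoImplicit false
set_option linter.unusedSectionVars false

namespace Cfsg.Agent.H964.NoHall.BabyQ

open Cfsg.Agent.BabyM.Model

variable {W : Type} [AddCommGroup W] [Module ℚ W] {M : BData W} {K₀ : Type} [Group K₀] (A : BAll M K₀)
include A

theorem line_parts {s : W ≃ₗ[ℚ] W} (hs : s ∈ M.C) {h : W ≃ₗ[ℚ] W} (hh : h ∈ M.C)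
    (e : s (h M.d₀) = h M.d₀ ∨ s (h M.d₀) = - h M.d₀) : s (h M.u₀) = h M.u₀ ∨ s (h M.u₀) = - h M.u₀ := by
  have hsU := A.C_U s hs _ (A.C_U h hh _ A.u₀_mem)
  have hsE := A.C_E s hs _ (A.C_E h hh _ A.e₀_mem)
  have hU := A.C_U h hh _ A.u₀_mem
  have hE := A.C_E h hh _ A.e₀_mem
  unfold BData.d₀ at e
  rw [map_add, map_add] at e
  rcases e with e | e
  · exact Or.inl (A.parts hsU hU hsE hE e).1
  · rw [neg_add] at e
    exact Or.inr (A.parts hsU (Submodule.neg_mem _ hU) hsE (Submodule.neg_mem _ hE) e).1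

/-- the transpositions of the axes `h d₀` with `(h u₀, u₀) = -1` commute with `t₀` -/
theorem comm_t {h : W ≃ₗ[ℚ] W} (hh : h ∈ M.C) (hF : M.F (h M.u₀) M.u₀ = -1) :
    (h * M.t₀ * h⁻¹) * M.t₀ = M.t₀ * (h * M.t₀ * h⁻¹) := by
  obtain ⟨h1, h2⟩ := A.e_mem_P_aux h hh hF
  have h3 : M.t₀ (h M.d₀) = h M.d₀ := by
    unfold BData.d₀
    rw [map_add, map_add, A.t₀_fix_P _ h1, A.t₀_fix_P _ h2]
  have h4 : (h⁻¹ * M.t₀ * h) M.d₀ = M.d₀ := by
    rw [LinearEquiv.mul_apply, LinearEquiv.mul_apply, h3, inv_apply_self']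
  have h5 := A.t₀_comm (h⁻¹ * M.t₀ * h) (M.Γ.mul_mem (M.Γ.mul_mem (M.Γ.inv_mem (A.C_le hh)) (A.C_le A.t₀_C))
    (A.C_le hh)) (Or.inl h4)
  calc (h * M.t₀ * h⁻¹) * M.t₀ = h * (M.t₀ * (h⁻¹ * M.t₀ * h)) * h⁻¹ := by group
    _ = h * ((h⁻¹ * M.t₀ * h) * M.t₀) * h⁻¹ := by rw [h5]
    _ = M.t₀ * (h * M.t₀ * h⁻¹) := by group

theorem u₀_ne : M.u₀ ≠ - M.u₀ := by
  intro h
  have h1 := A.rep.u₀_norm
  have h2 : M.F M.u₀ M.u₀ = - M.F M.u₀ M.u₀ := by
    conv_lhs => rw [h]
    rw [LinearMap.BilinForm.neg_left, ← h]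
  linarith

/-- **an element centralising `C_Q(t₀)` acts as a sign on the `23`-part.** -/
theorem sign_U {s : W ≃ₗ[ℚ] W} (hs : s ∈ M.C) (h : ∀ q ∈ M.Q, q * M.t₀ = M.t₀ * q → s * q = q * s) :
    (∀ x ∈ M.U, s x = x) ∨ (∀ x ∈ M.U, s x = -x) := by
  have ht := h M.t₀ A.rep.t₀_mem rfl
  have h0 := line_parts A hs M.C.one_mem (by
    have := A.comm_t₀_C s hs ht
    exact this)
  have h0' : s M.u₀ = M.u₀ ∨ s M.u₀ = - M.u₀ := h0
  have key : ∀ k ∈ M.C, M.F (k M.u₀) M.u₀ = -1 → s (k M.u₀) = k M.u₀ ∨ s (k M.u₀) = - k M.u₀ := by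
    intro k hk hF
    apply line_parts A hs hk
    have hc := comm_t A hk hF
    have hq := h _ (A.grp.Q_normal k hk _ A.rep.t₀_mem) hc
    have h1 : (k⁻¹ * s * k) * M.t₀ = M.t₀ * (k⁻¹ * s * k) := by
      calc (k⁻¹ * s * k) * M.t₀ = k⁻¹ * (s * (k * M.t₀ * k⁻¹)) * k := by group
        _ = k⁻¹ * ((k * M.t₀ * k⁻¹) * s) * k := by rw [hq]
        _ = M.t₀ * (k⁻¹ * s * k) := by group
    have h2 := A.comm_t₀_C _ (M.C.mul_mem (M.C.mul_mem (M.C.inv_mem hk) hs) hk) h1
    rw [LinearEquiv.mul_apply, LinearEquiv.mul_apply] at h2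
    rcases h2 with h2 | h2
    · left
      have h3 := congrArg k h2
      rw [apply_inv_self'] at h3
      exact h3
    · right
      have h3 := congrArg k h2
      rw [apply_inv_self', map_neg] at h3
      exact h3
  rcases h0' with h0 | h0
  · left
    have hspan : ∀ x ∈ Submodule.span ℚ {x | ∃ k ∈ M.C, M.F (k M.u₀) M.u₀ = -1 ∧ x = k M.u₀}, s x = x := by
      intro x hx
      induction hx using Submodule.span_induction with
      | mem x hx =>
        obtain ⟨k, hk, hF, rfl⟩ := hx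
        rcases key k hk hF with h1 | h1
        · exact h1
        · exfalso
          have h2 := A.rep.C_isom s hs (k M.u₀) M.u₀
          rw [h1, h0, LinearMap.BilinForm.neg_left, hF] at h2
          norm_num at h2
      | zero => exact map_zero s
      | add a b _ _ ha hb => rw [map_add, ha, hb]
      | smul r a _ ha => rw [map_smul, ha]
    intro x hx
    induction hx using Submodule.span_induction with
    | mem x hx =>
      obtain ⟨g, hg, rfl⟩ := hx
      exact hspan _ (A.rep.U_span g hg)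
    | zero => exact map_zero s
    | add a b _ _ ha hb => rw [map_add, ha, hb]
    | smul r a _ ha => rw [map_smul, ha]
  · right
    have hspan : ∀ x ∈ Submodule.span ℚ {x | ∃ k ∈ M.C, M.F (k M.u₀) M.u₀ = -1 ∧ x = k M.u₀}, s x = -x := by
      intro x hx
      induction hx using Submodule.span_induction with
      | mem x hx =>
        obtain ⟨k, hk, hF, rfl⟩ := hx
        rcases key k hk hF with h1 | h1
        · exfalso
          have h2 := A.rep.C_isom s hs (k M.u₀) M.u₀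
          rw [h1, h0, map_neg, hF] at h2
          norm_num at h2
        · exact h1
      | zero => rw [map_zero, neg_zero]
      | add a b _ _ ha hb => rw [map_add, ha, hb, neg_add]
      | smul r a _ ha => rw [map_smul, ha, smul_neg]
    intro x hx
    induction hx using Submodule.span_induction with
    | mem x hx =>
      obtain ⟨g, hg, rfl⟩ := hx
      exact hspan _ (A.rep.U_span g hg)
    | zero => rw [map_zero, neg_zero]
    | add a b _ _ ha hb => rw [map_add, ha, hb, neg_add]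
    | smul r a _ ha => rw [map_smul, ha, smul_neg]

/-- the elements of `C` acting as a sign on the `23`-part are in `Q` -/
theorem mem_Q_of_sign {s : W ≃ₗ[ℚ] W} (hs : s ∈ M.C) (h : (∀ x ∈ M.U, s x = x) ∨ (∀ x ∈ M.U, s x = -x)) :
    s ∈ M.Q := by
  by_contra hsQ
  let N : Subgroup (W ≃ₗ[ℚ] W) :=
    { carrier := {g | g ∈ M.C ∧ ((∀ x ∈ M.U, g x = x) ∨ (∀ x ∈ M.U, g x = -x))}
      mul_mem' := by
        rintro a b ⟨ha, ha'⟩ ⟨hb, hb'⟩
        refine ⟨M.C.mul_mem ha hb, ?_⟩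
        rcases ha' with ha' | ha' <;> rcases hb' with hb' | hb'
        · left; intro x hx; rw [LinearEquiv.mul_apply, hb' x hx, ha' x hx]
        · right; intro x hx; rw [LinearEquiv.mul_apply, hb' x hx, map_neg, ha' x hx]
        · right; intro x hx; rw [LinearEquiv.mul_apply, hb' x hx, ha' x hx]
        · left; intro x hx; rw [LinearEquiv.mul_apply, hb' x hx, map_neg, ha' x hx, neg_neg]
      one_mem' := ⟨M.C.one_mem, Or.inl fun x _ => rfl⟩
      inv_mem' := by
        rintro a ⟨ha, ha'⟩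
        refine ⟨M.C.inv_mem ha, ?_⟩
        rcases ha' with ha' | ha'
        · left
          intro x hx
          have h1 := ha' x hx
          have h2 := congrArg (fun y => a⁻¹ y) h1
          simp only [inv_apply_self'] at h2
          exact h2.symm
        · right
          intro x hx
          have h1 := ha' x hx
          have h2 := congrArg (fun y => a⁻¹ y) h1
          simp only [inv_apply_self', map_neg] at h2
          exact (neg_eq_iff_eq_neg.2 h2).symm }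
  have hN : ∀ g ∈ M.C, ∀ n ∈ N, g * n * g⁻¹ ∈ N := by
    rintro g hg n ⟨hn, hn'⟩
    refine ⟨M.C.mul_mem (M.C.mul_mem hg hn) (M.C.inv_mem hg), ?_⟩
    rcases hn' with hn' | hn'
    · left
      intro x hx
      rw [LinearEquiv.mul_apply, LinearEquiv.mul_apply, hn' _ (A.C_U _ (M.C.inv_mem hg) x hx), apply_inv_self']
    · right
      intro x hx
      rw [LinearEquiv.mul_apply, LinearEquiv.mul_apply, hn' _ (A.C_U _ (M.C.inv_mem hg) x hx), map_neg,
        apply_inv_self']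
  have hcov := A.grp.cover N (fun g hg => hg.1) hN s ⟨hs, h⟩ hsQ
  have hu : ∀ g ∈ M.C, g M.u₀ = M.u₀ ∨ g M.u₀ = - M.u₀ := by
    intro g hg
    obtain ⟨n, ⟨-, hn⟩, q, hq, rfl⟩ := hcov g hg
    rw [LinearEquiv.mul_apply, A.rep.Q_u₀ q hq]
    rcases hn with hn | hn
    · exact Or.inl (hn _ A.u₀_mem)
    · exact Or.inr (hn _ A.u₀_mem)
  have hS : M.S ⊆ ({M.u₀ + M.e₀, M.u₀ + - M.e₀, - M.u₀ + M.e₀, - M.u₀ + - M.e₀} : Set W) := by
    rintro _ ⟨g, hg, rfl⟩
    have h1 := hu g hg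
    have h2 := A.rep.stab_u₀ g hg h1
    unfold BData.d₀
    rw [map_add]
    rcases h1 with h1 | h1 <;> rcases h2 with h2 | h2 <;> rw [h1, h2] <;> simp
  have hc := Set.ncard_le_ncard hS (by simp)
  rw [A.rep.S_card] at hc
  have hc2 : Set.ncard ({M.u₀ + M.e₀, M.u₀ + - M.e₀, - M.u₀ + M.e₀, - M.u₀ + - M.e₀} : Set W) ≤ 4 := by
    refine (Set.ncard_insert_le _ _).trans ?_
    have h1 := Set.ncard_insert_le (M.u₀ + - M.e₀) ({- M.u₀ + M.e₀, - M.u₀ + - M.e₀} : Set W)
    have h2 := Set.ncard_insert_le (- M.u₀ + M.e₀) ({- M.u₀ + - M.e₀} : Set W)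
    rw [Set.ncard_singleton] at h2
    omega
  omega

/-- **the centralizer of `C_Q(t₀)`** -/
theorem cent_CQ {s : W ≃ₗ[ℚ] W} (hs : s ∈ M.G) (h : ∀ q ∈ M.Q, q * M.t₀ = M.t₀ * q → s * q = q * s) :
    s = 1 ∨ s = M.z ∨ s = M.t₀ ∨ s = M.t₀ * M.z := by
  have hz : s * M.z = M.z * s := h M.z A.grp.z_mem (A.grp.z_comm M.t₀ A.t₀_C).symm
  have hsC := A.cent_z s hs hz
  have hsQ := mem_Q_of_sign A hsC (sign_U A hsC h)
  by_cases hcen : ∀ y ∈ M.Q, s * y = y * s
  · rcases A.grp.Q_center s hsQ hcen with h1 | h1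
    · exact Or.inl h1
    · exact Or.inr (Or.inl h1)
  · push Not at hcen
    obtain ⟨y₁, hy₁, hne⟩ := hcen
    have hzc : ∀ q ∈ M.Q, q * M.z = M.z * q := fun q hq => A.grp.z_comm q (A.grp.Q_le hq)
    have hy₁s : y₁ * s = s * y₁ * M.z := by
      rcases A.grp.Q_comm y₁ hy₁ s hsQ with h1 | h1
      · exact absurd h1.symm hne
      · exact h1
    have hy₁t : y₁ * M.t₀ = M.t₀ * y₁ * M.z := by
      rcases A.grp.Q_comm y₁ hy₁ _ A.rep.t₀_mem with h1 | h1
      · exact absurd (h y₁ hy₁ h1) hne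
      · exact h1
    have hst : ∀ y ∈ M.Q, (s * M.t₀) * y = y * (s * M.t₀) := by
      intro y hy
      rcases A.grp.Q_comm y hy _ A.rep.t₀_mem with h1 | h1
      · rw [mul_assoc, ← h1, ← mul_assoc, h y hy h1, mul_assoc]
      · -- `y₁⁻¹ y` commutes with `t₀`
        have h2 : (y₁⁻¹ * y) * M.t₀ = M.t₀ * (y₁⁻¹ * y) := by
          have h3 : y₁⁻¹ * M.t₀ = M.t₀ * M.z * y₁⁻¹ := by
            rw [inv_mul_eq_iff_eq_mul, ← mul_assoc, ← mul_assoc, hy₁t]
            have h4 : M.t₀ * y₁ * M.z * M.z * y₁⁻¹ = M.t₀ * y₁ * (M.z * M.z) * y₁⁻¹ := by group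
            rw [h4, A.grp.z_sq, mul_one, mul_inv_cancel_right]
          rw [mul_assoc, h1, ← mul_assoc, ← mul_assoc, h3]
          have h4 : y * M.z = M.z * y := hzc y hy
          have h5 : y₁⁻¹ * M.z = M.z * y₁⁻¹ := hzc _ (M.Q.inv_mem hy₁)
          calc M.t₀ * M.z * y₁⁻¹ * y * M.z = M.t₀ * (M.z * y₁⁻¹) * (y * M.z) := by group
            _ = M.t₀ * (y₁⁻¹ * M.z) * (M.z * y) := by rw [← h5, h4]
            _ = M.t₀ * y₁⁻¹ * (M.z * M.z) * y := by group
            _ = M.t₀ * (y₁⁻¹ * y) := by rw [A.grp.z_sq]; group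
        have h3 := h (y₁⁻¹ * y) (M.Q.mul_mem (M.Q.inv_mem hy₁) hy) h2
        have h4 : y * s = s * y * M.z := by
          calc y * s = y₁ * ((y₁⁻¹ * y) * s) := by group
            _ = y₁ * (s * (y₁⁻¹ * y)) := by rw [h3]
            _ = (y₁ * s) * (y₁⁻¹ * y) := by group
            _ = s * y₁ * (M.z * (y₁⁻¹ * y)) := by rw [hy₁s]; group
            _ = s * y₁ * ((y₁⁻¹ * y) * M.z) := by rw [hzc _ (M.Q.mul_mem (M.Q.inv_mem hy₁) hy)]
            _ = s * y * M.z := by group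
        symm
        calc y * (s * M.t₀) = (y * s) * M.t₀ := by group
          _ = s * y * (M.z * M.t₀) := by rw [h4]; group
          _ = s * (y * M.t₀) * M.z := by rw [← hzc _ A.rep.t₀_mem]; group
          _ = s * M.t₀ * y * (M.z * M.z) := by rw [h1]; group
          _ = (s * M.t₀) * y := by rw [A.grp.z_sq, mul_one]
    have hsq : M.t₀ * M.t₀ = 1 := A.rep.t₀_sq
    rcases A.grp.Q_center _ (M.Q.mul_mem hsQ A.rep.t₀_mem) hst with h1 | h1
    · right; right; left
      calc s = (s * M.t₀) * M.t₀ := by rw [mul_assoc, hsq, mul_one]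
        _ = M.t₀ := by rw [h1, one_mul]
    · right; right; right
      calc s = (s * M.t₀) * M.t₀ := by rw [mul_assoc, hsq, mul_one]
        _ = M.t₀ * M.z := by rw [h1, ← hzc _ A.rep.t₀_mem]

end Cfsg.Agent.H964.NoHall.BabyQ
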