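import Cfsg.Agent.H964.NoHall.BabyN

/-!
# The Baby Monster: a subgroup of odd index containing the centralizer of a transposition is everything (helper964)
-/

set_option autoImplicit false
set_option linter.unusedSectionVars false

namespace Cfsg.Agent.H964.NoHall.BabyN

open Subgroup Cfsg.Agent.BabyM.Model Cfsg.Agent.H964.NoHall.BabyQ

variable {W : Type} [AddCommGroup W] [Module ℚ W] {M : BData W} {K₀ : Type} [Group K₀] (A : BAll M K₀)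
include A

/-- a conjugate of `t₀` in `Q` is a conjugate under `C` -/
theorem axis_of_mem_Q (B : BTrans M) {g : W ≃ₗ[ℚ] W} (hg : g ∈ M.G) (hq : g * M.t₀ * g⁻¹ ∈ M.Q) :
    ∃ h ∈ M.C, h * M.t₀ * h⁻¹ = g * M.t₀ * g⁻¹ := by
  obtain ⟨j, h, hh, e⟩ : g M.d₀ ∈ M.D := ((A.G_le hg).2 _).2 A.d₀_mem
  by_cases hj : j = M.j₀
  · subst hj
    refine ⟨h, hh, ?_⟩
    have h1 := A.conj_t 1 g h M.Γ.one_mem (A.G_le hg) (A.C_le hh) (Or.inl (by
      rw [A.d₀_eq] at e ⊢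
      exact e))
    rw [← h1]
    group
  · exfalso
    obtain ⟨k, hk, hkd, x, hx, hne⟩ := B.moves j hj
    apply hne
    have h1 := A.conj_t h k g (A.C_le hh) (A.G_le hk) (A.G_le hg) (Or.inl (by rw [hkd, e]))
    have h2 : k * M.t₀ * k⁻¹ = h⁻¹ * (g * M.t₀ * g⁻¹) * h := by
      rw [← h1]; group
    rw [h2]
    exact A.Q_U _ (A.grp.Q_normal' h hh _ hq) x hx

/-- two commuting transpositions in `Q`, one of them `t₀` -/
theorem pair {f : W ≃ₗ[ℚ] W} (hf : f ∈ M.C) (hc : (f * M.t₀ * f⁻¹) * M.t₀ = M.t₀ * (f * M.t₀ * f⁻¹))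
    (h1 : f * M.t₀ * f⁻¹ ≠ M.t₀) (h2 : f * M.t₀ * f⁻¹ ≠ M.t₀ * M.z) :
    ∃ y ∈ M.G, y * M.t₀ * y⁻¹ = M.t₀ ∧ y * (M.t₀ * M.z) * y⁻¹ = f * M.t₀ * f⁻¹ := by
  obtain ⟨q₀, hq₀, hq₀d, hq₀t⟩ := A.d₁_mem'
  have hfΓ := A.C_le hf
  have hq₀Γ := A.C_le (A.grp.Q_le hq₀)
  -- `f e₀ ≠ ± e₀`
  have hne : ¬ (f M.e₀ = M.e₀ ∨ f M.e₀ = - M.e₀) := by
    intro he
    have hu := A.rep.stab_e₀ f hf he
    have hd : (f M.d₀ = M.d₀ ∨ f M.d₀ = - M.d₀) ∨ (f M.d₀ = M.d₁ ∨ f M.d₀ = - M.d₁) := by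
      unfold BData.d₀ BData.d₁
      rw [map_add]
      rcases he with he | he <;> rcases hu with hu | hu <;> rw [he, hu]
      · exact Or.inl (Or.inl rfl)
      · exact Or.inr (Or.inr (by abel))
      · exact Or.inr (Or.inl (by abel))
      · exact Or.inl (Or.inr (by abel))
    rcases hd with hd | hd
    · apply h1
      have h3 := A.conj_t f 1 1 hfΓ M.Γ.one_mem M.Γ.one_mem hd
      simpa using h3
    · apply h2
      have h3 := A.conj_t f 1 q₀ hfΓ M.Γ.one_mem hq₀Γ (by rw [hq₀d]; exact hd)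
      rw [A.q₀_conj hq₀ hq₀t] at h3
      simpa using h3
  rw [not_or] at hne
  -- `t₀ (f e₀) = f e₀`
  have h3 : (f⁻¹ * M.t₀ * f) * M.t₀ = M.t₀ * (f⁻¹ * M.t₀ * f) := by
    calc (f⁻¹ * M.t₀ * f) * M.t₀ = f⁻¹ * (M.t₀ * (f * M.t₀ * f⁻¹)) * f := by group
      _ = f⁻¹ * ((f * M.t₀ * f⁻¹) * M.t₀) * f := by rw [hc]
      _ = _ := by group
  have h4 := A.rep.Q_e₀_pos _ (A.grp.Q_normal' f hf _ A.rep.t₀_mem) h3
  rw [LinearEquiv.mul_apply, LinearEquiv.mul_apply] at h4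
  have h5 : M.t₀ (f M.e₀) = f M.e₀ := by
    have h6 := congrArg f h4
    rwa [apply_inv_self'] at h6
  have h0 := A.F_e f hf hne.1 hne.2
  have hfU := A.C_U f hf _ A.u₀_mem
  have hfE := A.C_E f hf _ A.e₀_mem
  have hFd : M.F (f M.d₀) M.d₀ = M.F (f M.u₀) M.u₀ := by
    have h6 : f M.d₀ = f M.u₀ + f M.e₀ := map_add f _ _
    rw [h6]
    unfold BData.d₀
    rw [A.F_parts _ _ _ _ hfU A.u₀_mem hfE A.e₀_mem, h0, add_zero]
  have hfD : f M.d₀ ∈ M.D := A.C_D f hf _ A.d₀_mem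
  -- the element of `R`
  have hR : f M.d₀ ∈ M.R ∨ - f M.d₀ ∈ M.R := by
    rcases A.rep.t₀_e f hf h5 with h6 | h6 | h6 | h6
    · exact absurd h6 hne.1
    · exact absurd h6 hne.2
    · exact Or.inr ⟨A.neg_D _ hfD, by rw [LinearMap.BilinForm.neg_left, hFd, h6]⟩
    · exact Or.inl ⟨hfD, by rw [hFd, h6]⟩
  have hy : ∃ y ∈ M.G, y M.d₀ = M.d₀ ∧ (y M.d₁ = f M.d₀ ∨ y M.d₁ = - f M.d₀) := by
    rcases hR with hR | hR
    · obtain ⟨y, hy, e1, e2⟩ := A.trans_R _ hR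
      exact ⟨y, hy, e1, Or.inl e2⟩
    · obtain ⟨y, hy, e1, e2⟩ := A.trans_R _ hR
      exact ⟨y, hy, e1, Or.inr e2⟩
  obtain ⟨y, hy, e1, e2⟩ := hy
  refine ⟨y, hy, ?_, ?_⟩
  · have h7 := A.t₀_comm y (A.G_le hy) (Or.inl e1)
    rw [h7, mul_inv_cancel_right]
  · have h7 := A.conj_t y q₀ f (A.G_le hy) hq₀Γ hfΓ (by rw [hq₀d]; exact e2)
    rw [A.q₀_conj hq₀ hq₀t] at h7
    exact h7

omit A in
theorem conj_cent {G : Type*} [Group G] {N : Subgroup G} {t k : G} (h : centralizer ({t} : Set G) ≤ N) (hk : k ∈ N) :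
    centralizer ({k * t * k⁻¹} : Set G) ≤ N := by
  intro x hx
  rw [mem_centralizer_singleton_iff] at hx
  have h1 : k⁻¹ * x * k ∈ N := by
    apply h
    rw [mem_centralizer_singleton_iff]
    calc k⁻¹ * x * k * t = k⁻¹ * (x * (k * t * k⁻¹)) * k := by group
      _ = k⁻¹ * ((k * t * k⁻¹) * x) * k := by rw [hx]
      _ = _ := by group
  have h2 := N.mul_mem (N.mul_mem hk h1) (N.inv_mem hk)
  have h3 : k * (k⁻¹ * x * k) * k⁻¹ = x := by group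
  rwa [h3] at h2

omit A in
theorem cent_map {G : Type*} [Group G] {N : Subgroup G} {t : G} (k : G) (h : centralizer ({t} : Set G) ≤ N) :
    centralizer ({k * t * k⁻¹} : Set G) ≤ N.map (MulAut.conj k).toMonoidHom := by
  intro x hx
  rw [mem_centralizer_singleton_iff] at hx
  refine ⟨k⁻¹ * x * k, h ?_, ?_⟩
  · rw [mem_centralizer_singleton_iff]
    calc k⁻¹ * x * k * t = k⁻¹ * (x * (k * t * k⁻¹)) * k := by group
      _ = k⁻¹ * ((k * t * k⁻¹) * x) * k := by rw [hx]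
      _ = _ := by group
  · change k * (k⁻¹ * x * k) * k⁻¹ = x
    group

/-- **A subgroup of odd index containing the centralizer of a transposition is the whole group.** -/
theorem eq_top (B : BTrans M) {a b : M.G} (ha : (a : W ≃ₗ[ℚ] W) ∈ M.Q) (hb : (b : W ≃ₗ[ℚ] W) ∈ M.Q)
    (hat : IsConj (tG A) a) (hbt : IsConj (tG A) b) (hab : a * b = b * a) (hne : a ≠ b) (hne' : b ≠ a * zG A)
    (hcl : ∀ K : Subgroup M.G, centralizer ({a} : Set M.G) ≤ K → centralizer ({b} : Set M.G) ≤ K → K = ⊤)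
    {N : Subgroup M.G} (hN : centralizer ({tG A} : Set M.G) ≤ N) (hodd : ¬ 2 ∣ N.index) : N = ⊤ := by
  obtain ⟨g, hg, hgt⟩ := exists_conj A B hN hodd
  obtain ⟨ga, hga⟩ := isConj_iff.mp hat
  obtain ⟨gb, hgb⟩ := isConj_iff.mp hbt
  have hga' : (ga : W ≃ₗ[ℚ] W) * M.t₀ * (ga : W ≃ₗ[ℚ] W)⁻¹ = a := congrArg Subtype.val hga
  have hgb' : (gb : W ≃ₗ[ℚ] W) * M.t₀ * (gb : W ≃ₗ[ℚ] W)⁻¹ = b := congrArg Subtype.val hgb
  obtain ⟨h, hh, e1⟩ := axis_of_mem_Q A B ga.2 (by rw [hga']; exact ha)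
  obtain ⟨h', hh', e2⟩ := axis_of_mem_Q A B gb.2 (by rw [hgb']; exact hb)
  rw [hga'] at e1
  rw [hgb'] at e2
  have hab' : (a : W ≃ₗ[ℚ] W) * b = b * a := congrArg Subtype.val hab
  have hne1 : (b : W ≃ₗ[ℚ] W) ≠ a := fun h => hne (Subtype.ext h.symm)
  have hne2 : (b : W ≃ₗ[ℚ] W) ≠ a * M.z := fun h => hne' (Subtype.ext h)
  have hzc : M.z * h⁻¹ = h⁻¹ * M.z := (A.grp.z_comm _ (M.C.inv_mem hh)).symm
  have ef : (h⁻¹ * h') * M.t₀ * (h⁻¹ * h')⁻¹ = h⁻¹ * b * h := by rw [← e2]; group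
  have et : M.t₀ = h⁻¹ * a * h := by rw [← e1]; group
  obtain ⟨y, hy, y1, y2⟩ := pair A (f := h⁻¹ * h') (M.C.mul_mem (M.C.inv_mem hh) hh') (by
      rw [ef]
      calc h⁻¹ * (b : W ≃ₗ[ℚ] W) * h * M.t₀ = h⁻¹ * ((b : W ≃ₗ[ℚ] W) * a) * h := by rw [et]; group
        _ = h⁻¹ * ((a : W ≃ₗ[ℚ] W) * b) * h := by rw [hab']
        _ = M.t₀ * (h⁻¹ * b * h) := by rw [et]; group) (by
      rw [ef]
      intro h1
      apply hne1
      calc (b : W ≃ₗ[ℚ] W) = h * (h⁻¹ * b * h) * h⁻¹ := by group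
        _ = a := by rw [h1, e1]) (by
      rw [ef]
      intro h1
      apply hne2
      calc (b : W ≃ₗ[ℚ] W) = h * (h⁻¹ * b * h) * h⁻¹ := by group
        _ = h * M.t₀ * (M.z * h⁻¹) := by rw [h1]; group
        _ = h * M.t₀ * h⁻¹ * M.z := by rw [hzc]; group
        _ = a * M.z := by rw [e1])
  -- the conjugate of `N`
  let k : M.G := ⟨h * y, M.G.mul_mem (A.C_le_G hh) hy⟩
  have k1 : k * tG A * k⁻¹ = a := by
    apply Subtype.ext
    change (h * y) * M.t₀ * (h * y)⁻¹ = a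
    calc (h * y) * M.t₀ * (h * y)⁻¹ = h * (y * M.t₀ * y⁻¹) * h⁻¹ := by group
      _ = a := by rw [y1, e1]
  have k2 : k * (g * tG A * g⁻¹) * k⁻¹ = b := by
    rw [hgt]
    apply Subtype.ext
    change (h * y) * (M.t₀ * M.z) * (h * y)⁻¹ = b
    calc (h * y) * (M.t₀ * M.z) * (h * y)⁻¹ = h * (y * (M.t₀ * M.z) * y⁻¹) * h⁻¹ := by group
      _ = h * (h⁻¹ * b * h) * h⁻¹ := by rw [y2, ef]
      _ = b := by group
  have hK := hcl (N.map (MulAut.conj k).toMonoidHom) (by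
    have h1 := cent_map k hN
    rwa [k1] at h1) (by
    have h1 := cent_map k (conj_cent hN hg)
    rwa [k2] at h1)
  rw [eq_top_iff]
  intro x _
  have h1 : k * x * k⁻¹ ∈ N.map (MulAut.conj k).toMonoidHom := by rw [hK]; exact mem_top _
  obtain ⟨n, hn, hnx⟩ := h1
  have h2 : k * n * k⁻¹ = k * x * k⁻¹ := hnx
  have h3 : n = x := by simpa using h2
  rwa [← h3]

end Cfsg.Agent.H964.NoHall.BabyN
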