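import Cfsg.Agent.H964.NoHall.Gen
import Cfsg.Agent.H964.NoHall.Tr
import Cfsg.Agent.NotCT.Orders
import Cfsg.Agent.Walter.J1Torus

/-!
# No Hall systems: J1 (helper964)
-/

set_option autoImplicit false

namespace Cfsg.Agent.H964.NoHall

open Subgroup Cfsg Cfsg.Agent.H554 Cfsg.Agent.NotCT MulAction

/-- Elements `x`, `h` with `h * x * h⁻¹ = x ^ α`: the order of `h` divides the order of `N(⟨x⟩)`. -/
theorem dvd_card_normalizer_zpowers {S : Type*} [Group S] [Finite S] {x h : S} {α : ℕ}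
    (hα : h * x * h⁻¹ = x ^ α) : orderOf h ∣ Nat.card (normalizer ((zpowers x : Subgroup S) : Set S)) := by
  have h1 : h ∈ normalizer ((zpowers x : Subgroup S) : Set S) := by
    have h2 : (zpowers x).map (MulAut.conj h).toMonoidHom ≤ zpowers x := by
      rw [MonoidHom.map_zpowers, zpowers_le]
      change h * x * h⁻¹ ∈ _
      rw [hα]
      exact pow_mem (mem_zpowers x) _
    rw [mem_normalizer_iff_map]
    refine Subgroup.eq_of_le_of_card_ge h2 ?_
    exact (Nat.card_congr ((zpowers x).equivMapOfInjective _ (MulAut.conj h).injective).toEquiv).le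
  have h3 : orderOf (⟨h, h1⟩ : normalizer ((zpowers x : Subgroup S) : Set S)) = orderOf h := by
    rw [← Subgroup.orderOf_coe]
  rw [← h3]
  exact orderOf_dvd_natCard _

/-- **Sylow version with elements**: `x` of order `r`, `r` exactly divides `|S|`, and `h * x * h⁻¹ = x ^ α` with
`h` of prime order `q`. -/
theorem noHall_of_elts {S : Type*} [Group S] [Finite S] [IsSimpleGroup S] (hna : ¬ IsMulCommutative S)
    {l : List (ℕ × ℕ)} (hl : validl l = true) (hcard : Nat.card S = prodl l) {r : ℕ} (hr : r.Prime)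
    (hd2 : ¬ r ^ 2 ∣ Nat.card S) {q : ℕ} (hq : q.Prime) {x h : S} {α : ℕ} (hx : orderOf x = r)
    (hh : q ∣ orderOf h) (hα : h * x * h⁻¹ = x ^ α) (hex : (subProds l).all (excl l [r] [q]) = true) :
    NoHall S := by
  refine noHall_of_num hna hl hcard hr (hx ▸ orderOf_dvd_natCard x) [q] ?_ hex
  intro q' hq'
  rw [List.mem_singleton] at hq'
  subst hq'
  refine ⟨hq, zpowers x, IsPGroup.of_card (n := 1) (by rw [Nat.card_zpowers, hx, pow_one]), ?_,
    hh.trans (dvd_card_normalizer_zpowers hα)⟩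
  intro hcon
  apply hd2
  have h1 := (zpowers x).card_mul_index
  rw [Nat.card_zpowers, hx] at h1
  rw [← h1, pow_two]
  exact Nat.mul_dvd_mul_left r hcon

section

open Cfsg.Spor Cfsg.Agent.SporadicB.J1.Mat Cfsg.Agent.SporadicB.J1.Data Cfsg.Agent.SporadicB.J1.Main
  Cfsg.Agent.Walter.J1Torus

theorem j1_elts : ∃ x h : J1, orderOf x = 7 ∧ orderOf h = 3 ∧ h * x * h⁻¹ = x ^ 2 := by
  have : Fact (Nat.Prime 7) := ⟨by norm_num⟩
  have : Fact (Nat.Prime 3) := ⟨by norm_num⟩
  refine ⟨ev [0], ev [1, 0, 1, 2, 3, 3, 2, 3, 2, 3, 0, 1, 1, 0, 1], ?_, ?_, ?_⟩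
  · exact orderOf_eq_prime (((rep_ev [0]).pow 7).eq Rep.one (by decide +kernel))
      ((rep_ev [0]).ne Rep.one (by decide +kernel))
  · exact orderOf_eq_prime (((rep_ev _).pow 3).eq Rep.one (by decide +kernel))
      ((rep_ev _).ne Rep.one (by decide +kernel))
  · have h1 : ev [1, 0, 1, 2, 3, 3, 2, 3, 2, 3, 0, 1, 1, 0, 1] * ev [0] =
        ev [0] ^ 2 * ev [1, 0, 1, 2, 3, 3, 2, 3, 2, 3, 0, 1, 1, 0, 1] :=
      ((rep_ev _).mul (rep_ev _)).eq (((rep_ev _).pow 2).mul (rep_ev _)) (by decide +kernel)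
    rw [h1, mul_inv_cancel_right]

end

theorem j1_model [Finite Spor.J1] [IsSimpleGroup Spor.J1] (hna : ¬ IsMulCommutative Spor.J1) : NoHall Spor.J1 := by
  have hc : Nat.card Spor.J1 = prodl [(2, 3), (3, 1), (5, 1), (7, 1), (11, 1), (19, 1)] := by
    rw [Orders.j1 ⟨MulEquiv.refl _⟩]; decide +kernel
  obtain ⟨x, h, hx, hh, hα⟩ := j1_elts
  exact noHall_of_elts hna (l := [(2, 3), (3, 1), (5, 1), (7, 1), (11, 1), (19, 1)]) (by decide +kernel) hc
    (r := 7) (by norm_num) (by rw [hc]; decide +kernel) (q := 3) (by norm_num) hx hh.symm.dvd hα (by decide +kernel)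

theorem j1 {G : Type*} [Group G] [Finite G] [IsSimpleGroup G] (hna : ¬ IsMulCommutative G) (h : Spor.IsoJ1 G) :
    NoHall G := by
  obtain ⟨e⟩ := h
  exact row_congr hna e j1_model

end Cfsg.Agent.H964.NoHall
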