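import Cfsg.Agent.H964.NoHall.Gen
import Cfsg.Agent.NotCT.Orders

/-!
# No Hall systems: HS, Ru, Ly, J3, He (orders only) (helper964)
-/

set_option autoImplicit false

namespace Cfsg.Agent.H964.NoHall

open Subgroup Cfsg Cfsg.Agent.H554 Cfsg.Agent.NotCT

variable {G : Type*} [Group G] [Finite G] [IsSimpleGroup G]

theorem hs (hna : ¬ IsMulCommutative G) (h : Spor.IsoHS G) : NoHall G := by
  have hc : Nat.card G = prodl [(2, 9), (3, 2), (5, 3), (7, 1), (11, 1)] := by
    rw [Orders.hs h]; decide +kernel
  refine noHall_of_num hna (by decide +kernel) hc (r := 11) (by norm_num) (by rw [hc]; decide +kernel) [] ?_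
    (by decide +kernel)
  intro q hq; simp at hq

theorem ru (hna : ¬ IsMulCommutative G) (h : Spor.IsoRu G) : NoHall G := by
  have hc : Nat.card G = prodl [(2, 14), (3, 3), (5, 3), (7, 1), (13, 1), (29, 1)] := by
    rw [Orders.ru h]; decide +kernel
  refine noHall_of_num hna (by decide +kernel) hc (r := 13) (by norm_num) (by rw [hc]; decide +kernel) [] ?_
    (by decide +kernel)
  intro q hq; simp at hq

theorem ly (hna : ¬ IsMulCommutative G) (h : Spor.IsoLy G) : NoHall G := by
  have hc : Nat.card G = prodl [(2, 8), (3, 7), (5, 6), (7, 1), (11, 1), (31, 1), (37, 1), (67, 1)] := by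
    rw [Orders.ly h]; decide +kernel
  refine noHall_of_num hna (by decide +kernel) hc (r := 67) (by norm_num) (by rw [hc]; decide +kernel) [] ?_
    (by decide +kernel)
  intro q hq; simp at hq

theorem j3 (hna : ¬ IsMulCommutative G) (h : Spor.IsoJ3 G) : NoHall G := by
  have hc : Nat.card G = prodl [(2, 7), (3, 5), (5, 1), (17, 1), (19, 1)] := by
    rw [Orders.j3 h]; decide +kernel
  refine noHall_of_burnside hna (by decide +kernel) hc (r := 17) (by norm_num) (by rw [hc]; decide +kernel)
    (by rw [hc]; decide +kernel) ?_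
  intro q hq hd
  have h1 : q = 2 := by
    have h2 : q ∣ 2 ^ 4 := hd
    exact (Nat.prime_dvd_prime_iff_eq hq Nat.prime_two).mp (hq.dvd_of_dvd_pow h2)
  subst h1
  decide +kernel

theorem he (hna : ¬ IsMulCommutative G) (h : Spor.IsoHe G) : NoHall G := by
  have hc : Nat.card G = prodl [(2, 10), (3, 3), (5, 2), (7, 3), (17, 1)] := by
    rw [Orders.he h]; decide +kernel
  refine noHall_of_burnside hna (by decide +kernel) hc (r := 17) (by norm_num) (by rw [hc]; decide +kernel)
    (by rw [hc]; decide +kernel) ?_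
  intro q hq hd
  have h1 : q = 2 := by
    have h2 : q ∣ 2 ^ 4 := hd
    exact (Nat.prime_dvd_prime_iff_eq hq Nat.prime_two).mp (hq.dvd_of_dvd_pow h2)
  subst h1
  decide +kernel

end Cfsg.Agent.H964.NoHall
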